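import Mathlib

/-!
A finite group `N` acted on by a group `Γ` which induces all inner automorphisms, such that the
stabiliser in `Γ` of every non-central element of `N` is a maximal subgroup of `Γ`.
-/

set_option autoImplicit false
set_option linter.style.haveILetI false

namespace Cfsg.Agent.H73.MaxCent

open Subgroup

/-- The setting: `Γ` acts through `φ`, and `c` realises the inner automorphisms. -/
structure Setup (N Γ : Type*) [Group N] [Group Γ] where
  φ : Γ →* MulAut N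
  c : N →* Γ
  hc : ∀ n m : N, φ (c n) m = n * m * n⁻¹
  hmax : ∀ x : N, x ∉ center N → ∀ H : Subgroup Γ,
    (∀ g : Γ, φ g x = x → g ∈ H) → (∃ g ∈ H, φ g x ≠ x) → H = ⊤
  hproper : ∀ x : N, x ∉ center N → ∃ g : Γ, φ g x ≠ x

variable {N Γ : Type*} [Group N] [Group Γ] (S : Setup N Γ)

/-- Stabiliser of `x` in `Γ`. -/
def Setup.St (x : N) : Subgroup Γ where
  carrier := {g | S.φ g x = x}
  one_mem' := by simp
  mul_mem' := fun {a b} ha hb => by
    show S.φ (a * b) x = x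
    rw [map_mul, MulAut.mul_apply, hb, ha]
  inv_mem' := fun {a} ha => by
    show S.φ a⁻¹ x = x
    nth_rewrite 1 [← (ha : S.φ a x = x)]
    rw [← MulAut.mul_apply, ← map_mul, inv_mul_cancel, map_one, MulAut.one_apply]

theorem Setup.mem_St {x : N} {g : Γ} : g ∈ S.St x ↔ S.φ g x = x := Iff.rfl

theorem Setup.isCoatom_St {x : N} (hx : x ∉ center N) : IsCoatom (S.St x) := by
  refine ⟨fun h => ?_, fun H hH => ?_⟩
  · obtain ⟨g, hg⟩ := S.hproper x hx
    exact hg (h ▸ Subgroup.mem_top g : g ∈ S.St x)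
  · obtain ⟨g, hg, hg'⟩ := Set.exists_of_ssubset hH
    exact S.hmax x hx H (fun g' h' => hH.le h') ⟨g, hg, hg'⟩

theorem Setup.St_eq_of_le {x y : N} (hx : x ∉ center N) (hy : y ∉ center N)
    (h : S.St x ≤ S.St y) : S.St x = S.St y :=
  (((S.isCoatom_St hx).le_iff).1 h).resolve_left (S.isCoatom_St hy).1 |>.symm

/-- The centraliser of an element. -/
abbrev cz (x : N) : Subgroup N := centralizer ({x} : Set N)

theorem mem_cz {x y : N} : y ∈ cz x ↔ y * x = x * y := mem_centralizer_singleton_iff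

theorem self_mem_cz (x : N) : x ∈ cz x := mem_cz.2 rfl

theorem center_le_cz (x : N) : center N ≤ cz x := fun z hz =>
  mem_cz.2 ((mem_center_iff.1 hz x).symm)

theorem cz_ne_top {x : N} (hx : x ∉ center N) : cz x ≠ ⊤ := fun h =>
  hx (mem_center_iff.2 fun y => mem_cz.1 (h ▸ mem_top y))

theorem Setup.c_mem_St {x n : N} : S.c n ∈ S.St x ↔ n ∈ cz x := by
  rw [S.mem_St, S.hc, mem_cz, mul_inv_eq_iff_eq_mul]

theorem Setup.cz_eq_of_St_eq {x y : N} (h : S.St x = S.St y) : cz x = cz y := by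
  ext n; rw [← S.c_mem_St, ← S.c_mem_St, h]

theorem Setup.φ_conj (s : Γ) (r m : N) :
    S.φ s (r * (S.φ s).symm m * r⁻¹) = S.φ s r * m * (S.φ s r)⁻¹ := by simp

theorem Setup.twist {x r : N} {s : Γ} (hs : s ∈ S.St x) :
    (S.c (S.φ s r))⁻¹ * s * S.c r ∈ S.St x := by
  rw [S.mem_St, map_mul, map_mul, ← map_inv S.c, MulAut.mul_apply, MulAut.mul_apply, S.hc, S.hc,
    map_mul, map_mul, hs, map_inv, inv_inv]
  group

/-- The automorphism of `N` modulo its centre. -/
noncomputable def Setup.bar (g : Γ) : (N ⧸ center N) ≃* (N ⧸ center N) :=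
  QuotientGroup.congr (center N) (center N) (S.φ g)
    (Subgroup.characteristic_iff_map_eq.1 inferInstance (S.φ g))

local notation "π" => QuotientGroup.mk' (center N)

theorem Setup.bar_mk (g : Γ) (n : N) : S.bar g (π n) = π (S.φ g n) := rfl

/-- A subgroup of the central quotient invariant under the stabiliser of `x`. -/
def Setup.Inv (x : N) (R : Subgroup (N ⧸ center N)) : Prop :=
  ∀ g ∈ S.St x, ∀ r ∈ R, S.bar g r ∈ R

/-- The image of a centraliser in the central quotient. -/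
abbrev czb (x : N) : Subgroup (N ⧸ center N) := (cz x).map π

theorem mk_mem_czb {x n : N} : π n ∈ czb x ↔ n ∈ cz x := by
  refine ⟨fun h => ?_, fun h => mem_map_of_mem _ h⟩
  obtain ⟨m, hm, e⟩ := h
  have := QuotientGroup.eq.1 e
  simpa using mul_mem hm (center_le_cz x this)

theorem mk_eq_one {n : N} : π n = 1 ↔ n ∈ center N := QuotientGroup.eq_one_iff n

theorem czb_ne_bot {x : N} (hx : x ∉ center N) : czb x ≠ ⊥ := fun h =>
  hx (mk_eq_one.1 (Subgroup.mem_bot.1 (h ▸ mem_map_of_mem _ (self_mem_cz x) : π x ∈ (⊥ : Subgroup _))))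

theorem czb_ne_top {x : N} (hx : x ∉ center N) : czb x ≠ ⊤ := fun h =>
  cz_ne_top hx (eq_top_iff.2 fun n _ => mk_mem_czb.1 (h ▸ mem_top _))

theorem cz_eq_of_czb_eq {x y : N} (h : czb x = czb y) : cz x = cz y := by
  ext n; rw [← mk_mem_czb, ← mk_mem_czb, h]

theorem Setup.inv_czb (x : N) : S.Inv x (czb x) := by
  rintro g hg _ ⟨n, hn, rfl⟩
  rw [S.bar_mk, mk_mem_czb, mem_cz]
  rw [← (hg : S.φ g x = x), ← map_mul, ← map_mul, mem_cz.1 hn]

/-- An invariant subgroup lies in the centraliser or supplements it. -/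
theorem Setup.le_or_sup {x : N} (hx : x ∉ center N) {R : Subgroup (N ⧸ center N)}
    (hR : S.Inv x R) : R ≤ czb x ∨ R ⊔ czb x = ⊤ := by
  by_cases h : R ≤ czb x
  · exact Or.inl h
  right
  let R₀ := R.comap π
  have hinv : ∀ g ∈ S.St x, ∀ r ∈ R₀, S.φ g r ∈ R₀ := fun g hg r hr => hR g hg _ hr
  let H : Subgroup Γ :=
    { carrier := {g | ∃ r ∈ R₀, (S.c r)⁻¹ * g ∈ S.St x}
      one_mem' := ⟨1, one_mem _, by simp⟩
      mul_mem' := by
        rintro a b ⟨r, hr, ha⟩ ⟨r', hr', hb⟩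
        refine ⟨r * S.φ ((S.c r)⁻¹ * a) r', mul_mem hr (hinv _ ha _ hr'), ?_⟩
        have e : (S.c (r * S.φ ((S.c r)⁻¹ * a) r'))⁻¹ * (a * b) =
            ((S.c (S.φ ((S.c r)⁻¹ * a) r'))⁻¹ * ((S.c r)⁻¹ * a) * S.c r') * ((S.c r')⁻¹ * b) := by
          rw [map_mul, mul_inv_rev]; group
        rw [e]
        exact mul_mem (S.twist ha) hb
      inv_mem' := by
        rintro a ⟨r, hr, ha⟩
        refine ⟨S.φ ((S.c r)⁻¹ * a)⁻¹ r⁻¹, hinv _ (inv_mem ha) _ (inv_mem hr), ?_⟩
        have e := S.twist (r := r⁻¹) (inv_mem ha)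
        rwa [mul_assoc, show ((S.c r)⁻¹ * a)⁻¹ * S.c r⁻¹ = a⁻¹ by rw [map_inv]; group] at e }
  have hHtop : H = ⊤ := by
    refine S.hmax x hx H (fun g hg => ⟨1, one_mem _, by simpa [S.mem_St] using hg⟩) ?_
    obtain ⟨b, hb, hb'⟩ := SetLike.not_le_iff_exists.1 h
    obtain ⟨n, rfl⟩ := QuotientGroup.mk'_surjective (center N) b
    exact ⟨S.c n, ⟨n, hb, by simp⟩, fun e => hb' (mk_mem_czb.2 (S.c_mem_St.1 e))⟩
  refine eq_top_iff.2 fun b _ => ?_
  obtain ⟨n, rfl⟩ := QuotientGroup.mk'_surjective (center N) b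
  obtain ⟨r, hr, hn⟩ := (hHtop ▸ mem_top (S.c n) : S.c n ∈ H)
  rw [← map_inv, ← map_mul, S.c_mem_St] at hn
  have e : π n = π r * π (r⁻¹ * n) := by rw [← map_mul]; congr 1; group
  rw [e]
  exact mul_mem (mem_sup_left hr) (mem_sup_right (mk_mem_czb.2 hn))

theorem Setup.exists_decomp {x : N} (hx : x ∉ center N) (hx' : ∃ y, y ∉ cz x) (g : Γ) :
    ∃ n : N, (S.c n)⁻¹ * g ∈ S.St x := by
  let H : Subgroup Γ :=
    { carrier := {g | ∃ n : N, (S.c n)⁻¹ * g ∈ S.St x}
      one_mem' := ⟨1, by simp⟩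
      mul_mem' := by
        rintro a b ⟨r, ha⟩ ⟨r', hb⟩
        refine ⟨r * S.φ ((S.c r)⁻¹ * a) r', ?_⟩
        have e : (S.c (r * S.φ ((S.c r)⁻¹ * a) r'))⁻¹ * (a * b) =
            ((S.c (S.φ ((S.c r)⁻¹ * a) r'))⁻¹ * ((S.c r)⁻¹ * a) * S.c r') * ((S.c r')⁻¹ * b) := by
          rw [map_mul, mul_inv_rev]; group
        rw [e]
        exact mul_mem (S.twist ha) hb
      inv_mem' := by
        rintro a ⟨r, ha⟩
        refine ⟨S.φ ((S.c r)⁻¹ * a)⁻¹ r⁻¹, ?_⟩
        have e := S.twist (r := r⁻¹) (inv_mem ha)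
        rwa [mul_assoc, show ((S.c r)⁻¹ * a)⁻¹ * S.c r⁻¹ = a⁻¹ by rw [map_inv]; group] at e }
  obtain ⟨y, hy⟩ := hx'
  have : H = ⊤ := S.hmax x hx H (fun g hg => ⟨1, by simpa [S.mem_St] using hg⟩)
    ⟨S.c y, ⟨y, by simp⟩, fun e => hy (S.c_mem_St.1 e)⟩
  exact (this ▸ mem_top g : g ∈ H)

/-- A normal subgroup invariant under one stabiliser is invariant under all of `Γ`. -/
theorem Setup.inv_of_normal {x : N} (hx : x ∉ center N) {R : Subgroup (N ⧸ center N)}
    (hn : R.Normal) (hR : S.Inv x R) (g : Γ) : ∀ r ∈ R, S.bar g r ∈ R := by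
  intro b hb
  have hxy : ∃ y, y ∉ cz x := by
    by_contra hne
    push Not at hne
    exact cz_ne_top hx (eq_top_iff.2 fun y _ => hne y)
  obtain ⟨n, hn'⟩ := S.exists_decomp hx hxy g
  have := hn.conj_mem _ (hR _ hn' b hb) (π n)
  obtain ⟨m, rfl⟩ := QuotientGroup.mk'_surjective (center N) b
  rw [S.bar_mk] at this ⊢
  rwa [← map_inv (QuotientGroup.mk' (center N)), ← map_mul, ← map_mul, ← S.hc, ← MulAut.mul_apply,
    ← map_mul, mul_inv_cancel_left] at this

theorem Setup.map_bar_eq {x : N} {R : Subgroup (N ⧸ center N)} (hR : S.Inv x R) {g : Γ}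
    (hg : g ∈ S.St x) : R.map (S.bar g).toMonoidHom = R := by
  refine le_antisymm (by rintro _ ⟨r, hr, rfl⟩; exact hR g hg r hr) fun r hr => ?_
  refine ⟨S.bar g⁻¹ r, hR _ (inv_mem hg) r hr, ?_⟩
  obtain ⟨n, rfl⟩ := QuotientGroup.mk'_surjective (center N) r
  show S.bar g (S.bar g⁻¹ (π n)) = π n
  rw [S.bar_mk, S.bar_mk, ← MulAut.mul_apply, ← map_mul, mul_inv_cancel, map_one, MulAut.one_apply]

theorem Setup.inv_normalizer {x : N} {R : Subgroup (N ⧸ center N)} (hR : S.Inv x R) :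
    S.Inv x (normalizer (R : Set (N ⧸ center N))) := by
  intro g hg r hr
  rw [mem_normalizer_iff] at hr ⊢
  intro h
  obtain ⟨h', rfl⟩ := (S.bar g).surjective h
  rw [← map_inv, ← map_mul, ← map_mul]
  have e : ∀ u, S.bar g u ∈ R ↔ u ∈ R := by
    intro u
    conv_lhs => rw [← S.map_bar_eq hR hg]
    exact mem_map_iff_mem (f := (S.bar g).toMonoidHom) (S.bar g).injective
  rw [e, e]
  exact hr h'

include S in
/-- A centraliser is self-normalising or normal. -/
theorem Setup.normal_or_selfnorm {x : N} (hx : x ∉ center N) :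
    (czb x).Normal ∨ normalizer (czb x : Set (N ⧸ center N)) = czb x := by
  rcases S.le_or_sup hx (S.inv_normalizer (S.inv_czb x)) with h | h
  · exact Or.inr (le_antisymm h le_normalizer)
  · rw [sup_eq_left.2 le_normalizer] at h
    exact Or.inl (normalizer_eq_top_iff.1 h)

/-- Having the same centraliser but not the same stabiliser forces normality. -/
theorem Setup.St_eq_or_normal {x y : N} (hx : x ∉ center N) (hy : y ∉ center N)
    (h : cz x = cz y) : S.St x = S.St y ∨ (czb x).Normal := by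
  by_cases he : S.St x = S.St y
  · exact Or.inl he
  right
  let H : Subgroup Γ :=
    { carrier := {g | ∀ n, n ∈ cz x ↔ S.φ g n ∈ cz x}
      one_mem' := by simp
      mul_mem' := fun {a b} ha hb n => by rw [map_mul, MulAut.mul_apply, ← ha, ← hb]
      inv_mem' := fun {a} ha n => by
        rw [ha (S.φ a⁻¹ n), ← MulAut.mul_apply, ← map_mul, mul_inv_cancel, map_one,
          MulAut.one_apply] }
  have hfix : ∀ z, S.St z ≤ S.St z := fun _ => le_rfl
  have key : ∀ z, cz x = cz z → ∀ g, S.φ g z = z → g ∈ H := by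
    intro z hz g hg n
    rw [hz, mem_cz, mem_cz]
    conv_rhs => rw [← hg, ← map_mul, ← map_mul, (S.φ g).injective.eq_iff]
  have hH : H = ⊤ := by
    refine S.hmax x hx H (key x rfl) ?_
    obtain ⟨g, hg, hg'⟩ := SetLike.not_le_iff_exists.1
      (fun hle : S.St y ≤ S.St x => he (S.St_eq_of_le hy hx hle).symm)
    exact ⟨g, key y h g hg, hg'⟩
  refine ⟨fun b hb a => ?_⟩
  obtain ⟨n, rfl⟩ := QuotientGroup.mk'_surjective (center N) a
  obtain ⟨m, rfl⟩ := QuotientGroup.mk'_surjective (center N) b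
  rw [← map_inv, ← map_mul, ← map_mul, mk_mem_czb, ← S.hc]
  exact ((hH ▸ mem_top (S.c n) : S.c n ∈ H) m).1 (mk_mem_czb.1 hb)

/-- All non-central elements of the centraliser of `x` have the stabiliser of `x`. -/
def Setup.Ab (x : N) : Prop := ∀ y ∈ cz x, y ∉ center N → S.St y = S.St x

theorem Setup.Ab.comm {S : Setup N Γ} {x a b : N} (h : S.Ab x) (ha : a ∈ cz x) (hb : b ∈ cz x) :
    a * b = b * a := by
  by_cases hz : a ∈ center N
  · exact (mem_center_iff.1 hz b).symm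
  · rw [← S.cz_eq_of_St_eq (h a ha hz)] at hb
    exact (mem_cz.1 hb).symm

/-- If all non-central elements of a non-normal centraliser share it, they share the stabiliser. -/
theorem Setup.ab_of_cz_eq {x : N} (hx : x ∉ center N) (hn : ¬ (czb x).Normal)
    (h : ∀ y ∈ cz x, y ∉ center N → cz y = cz x) : S.Ab x := fun y hy hyz =>
  (((S.St_eq_or_normal hx hyz (h y hy hyz).symm)).resolve_right hn).symm

theorem exists_coprime_split {n : ℕ} (hn : 0 < n) (hpp : ¬ ∃ p k : ℕ, p.Prime ∧ n = p ^ k) :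
    ∃ a b : ℕ, a.Coprime b ∧ n = a * b ∧ 1 < a ∧ 1 < b := by
  have hn1 : n ≠ 1 := fun h => hpp ⟨2, 0, Nat.prime_two, by simpa using h⟩
  obtain ⟨p, hp, hpn⟩ := Nat.exists_prime_and_dvd hn1
  obtain ⟨k, m, hm, rfl⟩ := Nat.exists_eq_pow_mul_and_not_dvd hn.ne' p hp.ne_one
  have hk : k ≠ 0 := by
    rintro rfl
    exact hm (by simpa using hpn)
  refine ⟨p ^ k, m, (Nat.Coprime.pow_left _ (hp.coprime_iff_not_dvd.2 hm)), rfl,
    Nat.one_lt_pow hk hp.one_lt, ?_⟩
  rcases Nat.lt_or_ge 1 m with h | h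
  · exact h
  · interval_cases m
    · simp at hm
    · exact absurd ⟨p, k, hp, mul_one _⟩ hpp

variable [Finite N]

/-- A prime power part of a non-central element with the same stabiliser. -/
theorem Setup.exists_pPart {x : N} (hx : x ∉ center N) :
    ∃ (p : ℕ) (u : N), p.Prime ∧ u ∈ zpowers x ∧ u ∉ center N ∧
      (∃ k : ℕ, orderOf u = p ^ k) ∧ S.St u = S.St x := by
  induction h : orderOf x using Nat.strong_induction_on generalizing x with
  | _ n ih =>
  subst h
  by_cases hpp : ∃ p k : ℕ, p.Prime ∧ orderOf x = p ^ k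
  · obtain ⟨p, k, hp, hk⟩ := hpp
    exact ⟨p, x, hp, mem_zpowers x, hx, ⟨k, hk⟩, rfl⟩
  obtain ⟨a, b, hco, hn, ha, hb⟩ := exists_coprime_split (orderOf_pos x) hpp
  have hor : x ^ a ∉ center N ∨ x ^ b ∉ center N := by
    by_contra hc
    push Not at hc
    apply hx
    have e : x = (x ^ a) ^ Nat.gcdA a b * (x ^ b) ^ Nat.gcdB a b := by
      rw [← zpow_natCast x a, ← zpow_mul, ← zpow_natCast x b, ← zpow_mul, ← zpow_add,
        ← Nat.gcd_eq_gcd_ab, hco.gcd_eq_one, Nat.cast_one, zpow_one]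
    rw [e]
    exact mul_mem (Subgroup.zpow_mem _ hc.1 _) (Subgroup.zpow_mem _ hc.2 _)
  have step : ∀ d : ℕ, 1 < d → d ∣ orderOf x → x ^ d ∉ center N →
      ∃ (p : ℕ) (u : N), p.Prime ∧ u ∈ zpowers x ∧ u ∉ center N ∧
        (∃ k : ℕ, orderOf u = p ^ k) ∧ S.St u = S.St x := by
    intro d hd hdvd hz
    have hlt : orderOf (x ^ d) < orderOf x := by
      rw [orderOf_pow_of_dvd (by omega) hdvd]
      exact Nat.div_lt_self (orderOf_pos x) hd
    obtain ⟨p, u, hp, hu, huz, hk, hSt⟩ := ih _ hlt hz rfl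
    refine ⟨p, u, hp, (zpowers_le.2 (pow_mem (mem_zpowers x) d)) hu, huz, hk, hSt.trans ?_⟩
    exact (S.St_eq_of_le hx hz fun g hg => by rw [S.mem_St, map_pow, hg]).symm
  rcases hor with h' | h'
  · exact step a ha (hn ▸ dvd_mul_right a b) h'
  · exact step b hb (hn ▸ dvd_mul_left b a) h'

theorem mem_zpowers_mul {x y : N} (hc : Commute x y) (hco : (orderOf x).Coprime (orderOf y)) :
    x ∈ zpowers (x * y) := by
  obtain ⟨m, hm⟩ := exists_pow_eq_self_of_coprime (x := x) (n := orderOf y) hco.symm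
  have e : (x * y) ^ orderOf y = x ^ orderOf y := by
    rw [hc.mul_pow, pow_orderOf_eq_one, mul_one]
  have h1 := pow_mem (pow_mem (mem_zpowers (x * y)) (orderOf y)) m
  rwa [e, hm] at h1

/-- Commuting elements of coprime orders have the same stabiliser. -/
theorem Setup.St_eq_of_coprime {x y : N} (hx : x ∉ center N) (hy : y ∉ center N)
    (hc : Commute x y) (hco : (orderOf x).Coprime (orderOf y)) : S.St x = S.St y := by
  have hxw := mem_zpowers_mul hc hco
  have hyw : y ∈ zpowers (x * y) := hc.eq ▸ mem_zpowers_mul hc.symm hco.symm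
  have hwz : x * y ∉ center N := fun h => hx ((zpowers_le.2 h) hxw)
  have key : ∀ z, z ∈ zpowers (x * y) → S.St (x * y) ≤ S.St z := by
    intro z hz g hg
    obtain ⟨i, rfl⟩ := mem_zpowers_iff.1 hz
    rw [S.mem_St, map_zpow, hg]
  rw [← S.St_eq_of_le hwz hx (key x hxw), ← S.St_eq_of_le hwz hy (key y hyw)]

/-- Two elements of different prime power orders with the same stabiliser. -/
theorem Setup.ab_of_St_eq {x x' : N} {p q : ℕ} (hp : p.Prime) (hq : q.Prime) (hpq : p ≠ q)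
    {k l : ℕ} (hx : orderOf x = p ^ k) (hx' : orderOf x' = q ^ l) (hxz : x ∉ center N)
    (hxz' : x' ∉ center N) (h : S.St x = S.St x') : S.Ab x := by
  intro y hy hyz
  obtain ⟨r, u, hr, hu, huz, ⟨m, hm⟩, hSt⟩ := S.exists_pPart hyz
  rw [← hSt]
  have hux : u ∈ cz x := zpowers_le.2 hy hu
  by_cases hrp : r = p
  · have hux' : u ∈ cz x' := S.cz_eq_of_St_eq h ▸ hux
    rw [h]
    exact S.St_eq_of_coprime huz hxz' (mem_cz.1 hux')
      (by rw [hm, hx']; exact Nat.coprime_pow_primes _ _ hr hq (hrp ▸ hpq))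
  · exact S.St_eq_of_coprime huz hxz (mem_cz.1 hux)
      (by rw [hm, hx]; exact Nat.coprime_pow_primes _ _ hr hp hrp)

/-- Without the `Ab` property the centraliser of a `p`-element is a `p`-group modulo the centre. -/
theorem Setup.isPGroup_czb {x : N} {p k : ℕ} (hp : p.Prime) (hx : orderOf x = p ^ k)
    (hxz : x ∉ center N) (hab : ¬ S.Ab x) : IsPGroup p (czb x) := by
  rintro ⟨_, y, hy, rfl⟩
  obtain ⟨l, m, hm, hym⟩ := Nat.exists_eq_pow_mul_and_not_dvd (orderOf_pos y).ne' p hp.ne_one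
  refine ⟨l, Subtype.ext ?_⟩
  show π y ^ p ^ l = 1
  rw [← map_pow, mk_eq_one]
  by_contra hz
  obtain ⟨q, u, hq, hu, huz, ⟨j, hj⟩, -⟩ := S.exists_pPart hz
  have hdvd : orderOf u ∣ m := by
    refine (orderOf_dvd_of_mem_zpowers hu).trans ?_
    exact orderOf_dvd_of_pow_eq_one (by rw [← pow_mul, ← hym, pow_orderOf_eq_one])
  have hj0 : j ≠ 0 := by
    rintro rfl
    rw [pow_zero, orderOf_eq_one_iff] at hj
    exact huz (hj ▸ one_mem _)
  have hqp : q ≠ p := by
    rintro rfl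
    exact hm ((dvd_pow_self q hj0).trans (hj ▸ hdvd))
  have hux : u ∈ cz x := zpowers_le.2 (pow_mem hy _) hu
  exact hab (S.ab_of_St_eq hp hq hqp.symm hx hj hxz huz
    (S.St_eq_of_coprime hxz huz (mem_cz.1 hux).symm
      (by rw [hx, hj]; exact Nat.coprime_pow_primes _ _ hp hq hqp.symm)))

end Cfsg.Agent.H73.MaxCent
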