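import Cfsg.Prelude.Def_Solvable
import Cfsg.Prelude.Def_Transfer
import Cfsg.Agent.H73.MaxCent.Setting
import Cfsg.Agent.Lib.FrobeniusGroup
import Cfsg.Agent.Coprime.Action

/-!
The cases in which the central quotient is a `p`-group or some non-central element shares its
stabiliser with its whole centraliser.
-/

set_option autoImplicit false
set_option linter.style.haveILetI false

namespace Cfsg.Agent.H73.MaxCent

open Subgroup
open scoped Pointwise commutatorElement

/-- The subgroup generated by `p`-th powers and commutators. -/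
def pfr (p : ℕ) (X : Type*) [Group X] : Subgroup X :=
  closure {x | (∃ y : X, y ^ p = x) ∨ ∃ a b : X, ⁅a, b⁆ = x}

theorem pow_mem_pfr {p : ℕ} {X : Type*} [Group X] (y : X) : y ^ p ∈ pfr p X :=
  subset_closure (Or.inl ⟨y, rfl⟩)

theorem commutator_mem_pfr {p : ℕ} {X : Type*} [Group X] (a b : X) : ⁅a, b⁆ ∈ pfr p X :=
  subset_closure (Or.inr ⟨a, b, rfl⟩)

theorem map_pfr_le {p : ℕ} {X Y : Type*} [Group X] [Group Y] (f : X →* Y) :
    (pfr p X).map f ≤ pfr p Y := by
  rw [map_le_iff_le_comap, pfr, closure_le]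
  rintro x (⟨y, rfl⟩ | ⟨a, b, rfl⟩)
  · exact mem_comap.2 (by rw [map_pow]; exact pow_mem_pfr _)
  · exact mem_comap.2 (by rw [map_commutatorElement]; exact commutator_mem_pfr _ _)

theorem pfr_le_coatom {p : ℕ} [hp : Fact p.Prime] {X : Type*} [Group X] [Finite X]
    (hX : IsPGroup p X) {M : Subgroup X} (hM : IsCoatom M) : M.Normal ∧ pfr p X ≤ M := by
  haveI := hX.isNilpotent
  have hn : M.Normal := by
    have h := Group.normalizerCondition_of_isNilpotent M (lt_top_iff_ne_top.2 hM.1)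
    exact normalizer_eq_top_iff.1 (hM.2 _ h)
  refine ⟨hn, ?_⟩
  have key : ∀ u : X, u ∉ M → ∀ v : X, ∃ i : ℤ, (v : X ⧸ M) = (u : X ⧸ M) ^ i := by
    intro u hu v
    have : (zpowers (u : X ⧸ M)).comap (QuotientGroup.mk' M) = ⊤ := by
      refine hM.2 _ (lt_of_le_of_ne (fun m hm => ?_) fun e => hu ?_)
      · rw [mem_comap, QuotientGroup.mk'_apply, (QuotientGroup.eq_one_iff (N := M) m).2 hm]
        exact one_mem _
      · rw [e, mem_comap]; exact mem_zpowers _
    obtain ⟨i, hi⟩ := mem_zpowers_iff.1 (mem_comap.1 (this ▸ mem_top v))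
    exact ⟨i, hi.symm⟩
  have hpow : ∀ y : X, y ^ p ∈ M := by
    intro y
    by_contra hy
    obtain ⟨i, hi⟩ := key _ hy y
    obtain ⟨k, hk⟩ := (hX.to_quotient M) (y : X ⧸ M)
    rw [QuotientGroup.mk_pow, ← zpow_natCast, ← zpow_mul] at hi
    have h1 : (y : X ⧸ M) ^ ((p : ℤ) * i - 1) = 1 := by
      rw [zpow_sub, zpow_one, ← hi, mul_inv_cancel]
    have hd := orderOf_dvd_iff_zpow_eq_one.2 h1
    obtain ⟨j, -, hj⟩ := (Nat.dvd_prime_pow hp.out).1 (orderOf_dvd_of_pow_eq_one hk)
    rcases Nat.eq_zero_or_pos j with hj0 | hj0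
    · rw [hj0, pow_zero, orderOf_eq_one_iff, QuotientGroup.eq_one_iff] at hj
      exact hy (pow_mem hj _)
    · rw [hj, Nat.cast_pow] at hd
      have : (p : ℤ) ∣ (p : ℤ) * i - 1 := (dvd_pow_self _ hj0.ne').trans hd
      have h' : (p : ℤ) ∣ 1 := by simpa using dvd_sub (dvd_mul_right (p : ℤ) i) this
      exact hp.out.ne_one (Nat.dvd_one.1 (Int.natCast_dvd_natCast.1 (by simpa using h')))
  rw [pfr, closure_le]
  rintro x (⟨y, rfl⟩ | ⟨a, b, rfl⟩)
  · exact hpow y
  · obtain ⟨u, hu⟩ : ∃ u, u ∉ M := by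
      by_contra h
      push Not at h
      exact hM.1 (eq_top_iff.2 fun y _ => h y)
    obtain ⟨i, hi⟩ := key u hu a
    obtain ⟨j, hj⟩ := key u hu b
    show ⁅a, b⁆ ∈ M
    rw [← QuotientGroup.eq_one_iff, ← QuotientGroup.mk'_apply, map_commutatorElement,
      QuotientGroup.mk'_apply, QuotientGroup.mk'_apply, hi, hj,
      commutatorElement_eq_one_iff_commute]
    exact (Commute.refl (u : X ⧸ M)).zpow_zpow i j

variable {N Γ : Type*} [Group N] [Group Γ] [Finite N] (S : Setup N Γ)

local notation "π" => QuotientGroup.mk' (center N)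

include S in
theorem Setup.elementary_of_pGroup {p : ℕ} [hp : Fact p.Prime]
    (hN : IsPGroup p (N ⧸ center N)) :
    Cfsg.IsElementaryAbelian p (⊤ : Subgroup (N ⧸ center N)) := by
  haveI := hN.isNilpotent
  have hR : pfr p (N ⧸ center N) = ⊥ := by
    refine (Subgroup.eq_bot_iff_forall _).2 fun b hb => ?_
    obtain ⟨n, rfl⟩ := QuotientGroup.mk'_surjective (center N) b
    refine mk_eq_one.2 (mem_center_iff.2 fun x => ?_)
    by_cases hx : x ∈ center N
    · exact (mem_center_iff.1 hx n).symm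
    suffices pfr p (N ⧸ center N) ≤ czb x from (mem_cz.1 (mk_mem_czb.1 (this hb))).symm
    refine (S.le_or_sup hx fun g hg r hr => ?_).resolve_right fun h => ?_
    · exact map_pfr_le (S.bar g).toMonoidHom (mem_map_of_mem _ hr)
    · obtain ⟨M, hM, hle⟩ := (eq_top_or_exists_le_coatom (czb x)).resolve_left (czb_ne_top hx)
      exact hM.1 (top_le_iff.1 (h.ge.trans (sup_le (pfr_le_coatom hN hM).2 hle)))
  refine ⟨⟨⟨fun a b => Subtype.ext ?_⟩⟩, fun a _ => Subgroup.mem_bot.1 (hR ▸ pow_mem_pfr a)⟩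
  exact commutatorElement_eq_one_iff_mul_comm.1 (Subgroup.mem_bot.1 (hR ▸ commutator_mem_pfr (a : N ⧸ center N) b))

/-- The first exceptional case: a normal centraliser of abelian type. -/
theorem Setup.normal_case {x : N} (hx : x ∉ center N) (hab : S.Ab x) (hn : (czb x).Normal) :
    (∃ p : ℕ, p.Prime ∧ Cfsg.IsElementaryAbelian p (⊤ : Subgroup (N ⧸ center N))) ∨
      ∃ t : N, t ∉ center N ∧ S.Ab t ∧ ¬ (czb t).Normal := by
  set A := czb x with hA
  have htriv : ∀ s ∈ S.St x, ∀ n : N, n⁻¹ * S.φ s n ∈ cz x := by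
    intro s hs n
    have hmem : n * x * n⁻¹ ∈ cz x := by
      rw [← mk_mem_czb, map_mul, map_mul, map_inv]
      exact hn.conj_mem _ (mem_map_of_mem _ (self_mem_cz x)) _
    have hnz : n * x * n⁻¹ ∉ center N := fun h => hx (by
      have := (inferInstance : (center N).Normal).conj_mem _ h n⁻¹
      simpa [mul_assoc] using this)
    have hs' : S.φ s (n * x * n⁻¹) = n * x * n⁻¹ := by
      rw [← S.mem_St, hab _ hmem hnz]; exact hs
    rw [map_mul, map_mul, map_inv, hs] at hs'
    rw [mem_cz]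
    calc n⁻¹ * S.φ s n * x = n⁻¹ * (S.φ s n * x * (S.φ s n)⁻¹) * S.φ s n := by group
      _ = n⁻¹ * (n * x * n⁻¹) * S.φ s n := by rw [hs']
      _ = x * (n⁻¹ * S.φ s n) := by group
  have hco : ∀ R : Subgroup (N ⧸ center N), A ≤ R → R = A ∨ R = ⊤ := by
    intro R hR
    have hinv : S.Inv x R := by
      intro s hs b hb
      obtain ⟨n, rfl⟩ := QuotientGroup.mk'_surjective (center N) b
      have e : S.φ s n = n * (n⁻¹ * S.φ s n) := by group
      rw [S.bar_mk, e, map_mul]
      exact mul_mem hb (hR (mem_map_of_mem _ (htriv s hs n)))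
    rcases S.le_or_sup hx hinv with h | h
    · exact Or.inl (le_antisymm h hR)
    · exact Or.inr (sup_eq_left.2 hR ▸ h)
  haveI := hn
  set q := QuotientGroup.mk' A with hq
  have hgen : ∀ b, q b ≠ 1 → zpowers (q b) = ⊤ := by
    intro b hb
    have h1 : (zpowers (q b)).comap q = ⊤ := by
      refine ((hco _ fun a ha => ?_).resolve_left fun e => hb ?_)
      · rw [mem_comap, show q a = 1 from (QuotientGroup.eq_one_iff (N := A) a).2 ha]
        exact one_mem _
      · exact (QuotientGroup.eq_one_iff (N := A) b).2 (e ▸ mem_comap.2 (mem_zpowers _))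
    refine eq_top_iff.2 fun c _ => ?_
    obtain ⟨c', rfl⟩ := QuotientGroup.mk'_surjective A c
    exact mem_comap.1 (h1 ▸ mem_top c')
  have hcard1 : Nat.card ((N ⧸ center N) ⧸ A) ≠ 1 := fun h =>
    czb_ne_top hx (Subgroup.index_eq_one.1 h)
  obtain ⟨r, hr, hrd⟩ := Nat.exists_prime_and_dvd hcard1
  haveI : Fact r.Prime := ⟨hr⟩
  obtain ⟨e, he⟩ := exists_prime_orderOf_dvd_card' r hrd
  obtain ⟨e', rfl⟩ := QuotientGroup.mk'_surjective A e
  have hcard : Nat.card ((N ⧸ center N) ⧸ A) = r := by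
    rw [← Subgroup.card_top, ← hgen e' (fun h => hr.ne_one (by rw [← he]; exact orderOf_eq_one_iff.2 h)),
      Nat.card_zpowers]
    exact he
  obtain ⟨t, ht⟩ : ∃ t, t ∉ cz x := by
    by_contra h
    push Not at h
    exact cz_ne_top hx (eq_top_iff.2 fun y _ => h y)
  have htz : t ∉ center N := fun h => ht (center_le_cz x h)
  have hdis : Disjoint A (czb t) := by
    rw [disjoint_def]
    intro b hb hb'
    obtain ⟨y, rfl⟩ := QuotientGroup.mk'_surjective (center N) b
    rw [hA, mk_mem_czb] at hb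
    rw [mk_mem_czb] at hb'
    rw [mk_eq_one]
    by_contra hyz
    exact ht (S.cz_eq_of_St_eq (hab y hb hyz) ▸ mem_cz.2 (mem_cz.1 hb').symm)
  have hinj : Function.Injective (q.comp (czb t).subtype) := by
    rw [injective_iff_map_eq_one]
    intro b hb
    exact Subtype.ext (disjoint_def.1 hdis ((QuotientGroup.eq_one_iff (N := A) (b : N ⧸ center N)).1 hb) b.2)
  have hcardB : Nat.card (czb t) = r := by
    have hd := card_dvd_of_injective _ hinj
    rw [hcard] at hd
    refine (hr.eq_one_or_self_of_dvd _ hd).resolve_left fun h => ?_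
    exact czb_ne_bot htz (card_eq_one.1 h)
  have htr : (π t) ^ r = 1 := by
    have := pow_card_eq_one' (x := (⟨π t, mem_map_of_mem _ (self_mem_cz t)⟩ : czb t))
    rw [hcardB] at this
    exact congrArg Subtype.val this
  by_cases hBn : (czb t).Normal
  swap
  · refine Or.inr ⟨t, htz, S.ab_of_cz_eq htz hBn fun y hy hyz => ?_, hBn⟩
    have hgenB : ∀ b ∈ czb t, b ∈ zpowers (π y) := by
      intro b hb
      have h1 : (zpowers (π y)).subgroupOf (czb t) = ⊤ := by
        haveI : Fact (Nat.card (czb t)).Prime := ⟨hcardB ▸ hr⟩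
        refine (eq_bot_or_eq_top_of_prime_card _).resolve_left fun h => hyz (mk_eq_one.1 ?_)
        have hm : (⟨π y, mk_mem_czb.2 hy⟩ : czb t) ∈ (zpowers (π y)).subgroupOf (czb t) :=
          mem_zpowers (π y)
        rw [h, Subgroup.mem_bot] at hm
        exact congrArg Subtype.val hm
      exact (h1 ▸ mem_top (⟨b, hb⟩ : czb t) : (⟨b, hb⟩ : czb t) ∈ (zpowers (π y)).subgroupOf (czb t))
    refine le_antisymm (fun n hn => ?_) (fun n hn => ?_)
    · have h1 : π y ∈ czb n := mem_map_of_mem _ (mem_cz.2 (mem_cz.1 hn).symm)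
      have h2 : t ∈ cz n :=
        mk_mem_czb.1 (zpowers_le.2 h1 (hgenB _ (mem_map_of_mem _ (self_mem_cz t))))
      exact mem_cz.2 (mem_cz.1 h2).symm
    · have h1 : y ∈ cz t := hy
      by_cases hnz : n ∈ center N
      · exact center_le_cz y hnz
      obtain ⟨i, hi⟩ := mem_zpowers_iff.1 (hgenB _ (mem_map_of_mem _ hn))
      rw [← mk_mem_czb]
      exact hi ▸ Subgroup.zpow_mem _ (mem_map_of_mem _ (self_mem_cz y)) i
  · left
    refine ⟨r, hr, ?_⟩
    have hAB : A ⊔ czb t = ⊤ := (hco _ le_sup_left).resolve_left fun e =>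
      czb_ne_bot htz (le_bot_iff.1 ((le_inf (sup_eq_left.1 e) le_rfl).trans hdis.le_bot))
    have hAc : ∀ a ∈ A, ∀ a' ∈ A, Commute a a' := by
      rintro _ ⟨a, ha, rfl⟩ _ ⟨a', ha', rfl⟩
      exact (show π a * π a' = π a' * π a by rw [← map_mul, ← map_mul, hab.comm ha ha'])
    haveI : Fact (Nat.card (czb t)).Prime := ⟨hcardB ▸ hr⟩
    haveI : IsCyclic (czb t) := isCyclic_of_prime_card hcardB
    have hBc : ∀ a ∈ czb t, ∀ a' ∈ czb t, Commute a a' := fun a ha a' ha' =>
      congrArg Subtype.val ((IsCyclic.commGroup (α := czb t)).mul_comm ⟨a, ha⟩ ⟨a', ha'⟩)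
    have hABc : ∀ a ∈ A, ∀ b ∈ czb t, Commute a b := fun a ha b hb =>
      Subgroup.commute_of_normal_of_disjoint _ _ hn hBn hdis a b ha hb
    have hcen : center (N ⧸ center N) = ⊤ := by
      rw [eq_top_iff, ← hAB, sup_le_iff]
      refine ⟨fun a ha => ?_, fun b hb => ?_⟩ <;> rw [mem_center_iff] <;> intro g
      · have : A ⊔ czb t ≤ centralizer ({a} : Set (N ⧸ center N)) := sup_le
          (fun a' ha' => mem_centralizer_singleton_iff.2 (hAc a' ha' a ha).eq)
          (fun b hb => mem_centralizer_singleton_iff.2 (hABc a ha b hb).symm.eq)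
        exact mem_centralizer_singleton_iff.1 (this (hAB ▸ mem_top g))
      · have : A ⊔ czb t ≤ centralizer ({b} : Set (N ⧸ center N)) := sup_le
          (fun a' ha' => mem_centralizer_singleton_iff.2 (hABc a' ha' b hb).eq)
          (fun b' hb' => mem_centralizer_singleton_iff.2 (hBc b' hb' b hb).eq)
        exact mem_centralizer_singleton_iff.1 (this (hAB ▸ mem_top g))
    have hcomm : ∀ u v : N ⧸ center N, Commute u v := fun u v =>
      (mem_center_iff.1 (hcen ▸ mem_top v) u)
    have hApow : ∀ a ∈ A, a ^ r = 1 := by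
      rintro _ ⟨a, ha, rfl⟩
      rw [← map_pow, mk_eq_one]
      set z := t * a * t⁻¹ * a⁻¹ with hz
      have hzc : z ∈ center N := by
        rw [hz, ← mk_eq_one, map_mul, map_mul, map_mul, map_inv, map_inv,
          (hcomm (π t) (π a)).eq, mul_inv_cancel_right, mul_inv_cancel]
      have hza : ∀ k : ℕ, t ^ k * a * (t ^ k)⁻¹ = z ^ k * a := by
        intro k
        induction k with
        | zero => simp
        | succ k ih =>
          calc t ^ (k + 1) * a * (t ^ (k + 1))⁻¹ = t * (t ^ k * a * (t ^ k)⁻¹) * t⁻¹ := by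
                rw [pow_succ' t]; group
            _ = t * (z ^ k * a) * t⁻¹ := by rw [ih]
            _ = z ^ k * (t * a * t⁻¹) := by
                calc t * (z ^ k * a) * t⁻¹ = (t * z ^ k) * a * t⁻¹ := by group
                  _ = (z ^ k * t) * a * t⁻¹ := by rw [mem_center_iff.1 (pow_mem hzc k) t]
                  _ = z ^ k * (t * a * t⁻¹) := by group
            _ = z ^ k * (z * a) := by rw [show t * a * t⁻¹ = z * a by rw [hz]; group]
            _ = z ^ (k + 1) * a := by rw [pow_succ z k]; exact (mul_assoc _ _ _).symm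
      have hzr : z ^ r = 1 := by
        have htc : t ^ r ∈ center N := by rw [← mk_eq_one, map_pow, htr]
        have := hza r
        rw [← mem_center_iff.1 htc a, mul_inv_cancel_right] at this
        exact right_eq_mul.1 this
      have hat : a ^ r ∈ cz t := by
        have e1 : (t * a * t⁻¹) ^ r = a ^ r := by
          rw [show t * a * t⁻¹ = z * a by rw [hz]; group,
            (show Commute z a from (mem_center_iff.1 hzc a).symm).mul_pow, hzr, one_mul]
        rw [conj_pow, mul_inv_eq_iff_eq_mul] at e1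
        exact mem_cz.2 e1.symm
      exact mk_eq_one.1 (disjoint_def.1 hdis (mem_map_of_mem _ (pow_mem ha r))
        (mem_map_of_mem _ hat))
    refine ⟨⟨⟨fun u v => Subtype.ext (hcomm u v)⟩⟩, fun u _ => ?_⟩
    have hu : u ∈ A ⊔ czb t := hAB ▸ mem_top u
    obtain ⟨a, ha, b, hb, rfl⟩ := mem_sup_of_normal_left.1 hu
    have hbr : b ^ r = 1 := by
      have := pow_card_eq_one' (x := (⟨b, hb⟩ : czb t))
      rw [hcardB] at this
      exact congrArg Subtype.val this
    rw [(hcomm a b).mul_pow, hApow a ha, hbr, one_mul]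

/-- The shape of a Frobenius central quotient. -/
def FrobOut (x : N) : Prop :=
  Cfsg.IsFrobeniusComplement (czb x) ∧ (Nat.card (czb x)).Prime ∧
    ∃ (K : Subgroup (N ⧸ center N)) (r : ℕ), r.Prime ∧ K.Normal ∧
      (K : Set (N ⧸ center N)) = Cfsg.frobeniusKernel (czb x) ∧
      Cfsg.IsElementaryAbelian r K ∧ IsComplement' K (czb x)

theorem eq_of_sup_eq_top {X : Type*} [Group X] {P K A : Subgroup X} (hP : P ≤ K)
    (hd : Disjoint K A) (hA : A ≤ normalizer (P : Set X)) (h : P ⊔ A = ⊤) : P = K := by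
  refine le_antisymm hP fun k hk => ?_
  have hk' : k ∈ ((A ⊔ P : Subgroup X) : Set X) := by rw [sup_comm, h]; exact mem_top k
  rw [coe_mul_of_left_le_normalizer_right A P hA] at hk'
  obtain ⟨a, ha, p, hp, rfl⟩ := hk'
  have : a = 1 := disjoint_def.1 hd (by simpa using mul_mem hk (inv_mem (hP hp))) ha
  simpa [this] using hp

/-- The second exceptional case: a self-normalising centraliser of abelian type. -/
theorem Setup.selfnorm_case {x : N} (hx : x ∉ center N) (hab : S.Ab x)
    (hnn : ¬ (czb x).Normal) : FrobOut x := by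
  set A := czb x with hA
  have hsn : normalizer (A : Set (N ⧸ center N)) = A :=
    (S.normal_or_selfnorm hx).resolve_left hnn
  have hFC : Cfsg.IsFrobeniusComplement A := by
    refine Frobenius.isFrobeniusComplement_of_ti (czb_ne_bot hx) (czb_ne_top hx) ?_
    intro g hg b hb hgb
    obtain ⟨y, rfl⟩ := QuotientGroup.mk'_surjective (center N) b
    obtain ⟨n, rfl⟩ := QuotientGroup.mk'_surjective (center N) g
    rw [← map_inv, ← map_mul, ← map_mul, hA, mk_mem_czb] at hgb
    rw [hA, mk_mem_czb] at hb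
    rw [mk_eq_one]
    by_contra hyz
    have hgz : n * y * n⁻¹ ∉ center N := fun h => hyz (by
      have := (inferInstance : (center N).Normal).conj_mem _ h n⁻¹
      simpa [mul_assoc] using this)
    have e1 := S.cz_eq_of_St_eq (hab y hb hyz)
    have e2 := S.cz_eq_of_St_eq (hab _ hgb hgz)
    apply hg
    rw [← hsn, mem_normalizer_iff]
    intro c
    obtain ⟨m, rfl⟩ := QuotientGroup.mk'_surjective (center N) c
    rw [← map_inv, ← map_mul, ← map_mul, hA, mk_mem_czb, mk_mem_czb]
    conv_lhs => rw [← e1]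
    conv_rhs => rw [← e2]
    rw [mem_cz, mem_cz]
    constructor
    · intro h
      calc n * m * n⁻¹ * (n * y * n⁻¹) = n * (m * y) * n⁻¹ := by group
        _ = n * (y * m) * n⁻¹ := by rw [h]
        _ = n * y * n⁻¹ * (n * m * n⁻¹) := by group
    · intro h
      calc m * y = n⁻¹ * (n * m * n⁻¹ * (n * y * n⁻¹)) * n := by group
        _ = n⁻¹ * (n * y * n⁻¹ * (n * m * n⁻¹)) * n := by rw [h]
        _ = y * m := by group
  obtain ⟨K, hKset, hKn, hc⟩ := Frobenius.exists_kernel hFC
  haveI := hKn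
  have hKmem : ∀ b, b ∈ K ↔ b = 1 ∨ ∀ g, g⁻¹ * b * g ∉ A := fun b => by
    rw [← SetLike.mem_coe, hKset, Frobenius.mem_frobeniusKernel]
  have hKinv : S.Inv x K := by
    intro s hs b hb
    rw [hKmem] at hb ⊢
    rcases hb with rfl | hb
    · exact Or.inl (map_one _)
    refine Or.inr fun g hg => ?_
    obtain ⟨g', rfl⟩ := (S.bar s).surjective g
    rw [← map_inv, ← map_mul, ← map_mul, hA, ← S.map_bar_eq (S.inv_czb x) hs] at hg
    exact hb g' ((mem_map_iff_mem (f := (S.bar s).toMonoidHom) (S.bar s).injective).1 hg)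
  have hAc : IsMulCommutative A := by
    refine ⟨⟨?_⟩⟩
    rintro ⟨_, a, ha, rfl⟩ ⟨_, b, hb, rfl⟩
    exact Subtype.ext (show π a * π b = π b * π a by rw [← map_mul, ← map_mul, hab.comm ha hb])
  have hAs : Group.IsSolvable A := Group.isSolvable_of_comm fun a b => hAc.is_comm.comm a b
  have hcop := (Frobenius.coprime_of_complement hFC hc).symm
  have hK1 : K ≠ ⊥ := Frobenius.ne_bot_of_isComplement' hFC hc
  have hAK : A ≤ normalizer (K : Set (N ⧸ center N)) := by
    rw [normalizer_eq_top]; exact le_top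
  obtain ⟨r, hr, hrK⟩ := Nat.exists_prime_and_dvd (fun e => hK1 (card_eq_one.1 e))
  haveI : Fact r.Prime := ⟨hr⟩
  obtain ⟨P₀, hP₀⟩ := Coprime.exists_invariant_sylow r hAK hcop (Or.inl hAs)
  set P := (P₀ : Subgroup K).map K.subtype with hP
  have huniq : ∀ Q : Sylow r K, A ≤ normalizer (((Q : Subgroup K).map K.subtype : Subgroup _) : Set (N ⧸ center N)) →
      (Q : Subgroup K).map K.subtype = P := by
    intro Q hQ
    obtain ⟨c, ⟨hcK, hcA⟩, hcQ⟩ :=
      Coprime.exists_centralizer_conj_sylow hAK hcop (Or.inl hAs) P₀ Q hP₀ hQ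
    have hcA' : c ∈ A := Frobenius.mem_of_commute hFC (h := π x) (mem_map_of_mem _ (self_mem_cz x))
      (fun e => hx (mk_eq_one.1 e)) (mem_centralizer_iff.1 hcA _ (mem_map_of_mem _ (self_mem_cz x))).symm
    have : c = 1 := disjoint_def.1 hc.disjoint hcK hcA'
    rw [← hcQ, this, map_one, one_smul]
  have hPinv : S.Inv x P := by
    intro s hs b hb
    have hmap : P.map (S.bar s).toMonoidHom = P := by
      have hle : P.map (S.bar s).toMonoidHom ≤ K := by
        rintro _ ⟨c, hc', rfl⟩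
        exact hKinv s hs c (map_subtype_le _ hc')
      obtain ⟨Q, hQ⟩ := Coprime.exists_sylow_map_eq (p := r) hle (by
        rw [card_map_of_injective (f := (S.bar s).toMonoidHom) (S.bar s).injective, hP, Coprime.card_sylow_map])
      rw [← hQ]
      apply huniq
      rw [hQ, ← map_equiv_normalizer_eq]
      exact (S.map_bar_eq (S.inv_czb x) hs).ge.trans (map_mono hP₀)
    rw [← hmap]
    exact mem_map_of_mem _ hb
  have hP1 : P ≠ ⊥ := by
    rw [hP, Ne, map_eq_bot_iff_of_injective _ K.subtype_injective]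
    exact P₀.ne_bot_of_dvd_card hrK
  have hPK : P = K := by
    refine eq_of_sup_eq_top (map_subtype_le _) hc.disjoint hP₀ ?_
    exact (S.le_or_sup hx hPinv).resolve_left fun h =>
      hP1 (le_bot_iff.1 ((le_inf (map_subtype_le _) h).trans hc.disjoint.le_bot))
  have hKp : IsPGroup r K := hPK ▸ P₀.isPGroup'.map _
  haveI : Nontrivial K := K.bot_or_nontrivial.resolve_left hK1
  obtain ⟨M, hM, -⟩ := (eq_top_or_exists_le_coatom (⊥ : Subgroup K)).resolve_left bot_ne_top
  set Φ := (pfr r K).map K.subtype with hΦ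
  have hΦmap : ∀ f : (N ⧸ center N) ≃* (N ⧸ center N), (∀ k ∈ K, f k ∈ K) → ∀ b ∈ Φ, f b ∈ Φ := by
    rintro f hf _ ⟨k, hk, rfl⟩
    let fK : K →* K := (f.toMonoidHom.comp K.subtype).codRestrict K fun k => hf k k.2
    exact ⟨fK k, map_pfr_le fK (mem_map_of_mem _ hk), rfl⟩
  have hΦA : A ≤ normalizer (Φ : Set (N ⧸ center N)) := by
    intro a _
    have key : ∀ g : N ⧸ center N, ∀ b ∈ Φ, g * b * g⁻¹ ∈ Φ := fun g b hb =>
      hΦmap (MulAut.conj g) (fun k hk => hKn.conj_mem k hk g) b hb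
    rw [mem_normalizer_iff]
    intro b
    refine ⟨key a b, fun h => ?_⟩
    have := key a⁻¹ _ h
    simpa [mul_assoc] using this
  have hΦ0 : Φ = ⊥ := by
    rcases S.le_or_sup hx (R := Φ) (fun s hs => hΦmap (S.bar s) (hKinv s hs)) with h | h
    · exact le_bot_iff.1 ((le_inf (map_subtype_le _) h).trans hc.disjoint.le_bot)
    · exfalso
      have e := eq_of_sup_eq_top (map_subtype_le _) hc.disjoint hΦA h
      apply hM.1
      refine eq_top_iff.2 fun k _ => (pfr_le_coatom hKp hM).2 ?_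
      obtain ⟨k', hk', e'⟩ := e.ge k.2
      exact K.subtype_injective e' ▸ hk'
  have hpfr : pfr r K = ⊥ := (map_eq_bot_iff_of_injective _ K.subtype_injective).1 hΦ0
  have hKea : Cfsg.IsElementaryAbelian r K :=
    ⟨⟨⟨fun a b => commutatorElement_eq_one_iff_mul_comm.1
      (Subgroup.mem_bot.1 (hpfr ▸ commutator_mem_pfr a b))⟩⟩,
      fun a ha => congrArg Subtype.val (Subgroup.mem_bot.1 (hpfr ▸ pow_mem_pfr (⟨a, ha⟩ : K)) :
        (⟨a, ha⟩ : K) ^ r = 1)⟩
  refine ⟨hFC, ?_, K, r, hr, hKn, hKset, hKea, hc⟩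
  obtain ⟨⟨k, hk⟩, hk1⟩ := exists_ne (1 : K)
  replace hk1 : k ≠ 1 := fun e => hk1 (Subtype.ext e)
  obtain ⟨y, rfl⟩ := QuotientGroup.mk'_surjective (center N) k
  have hy : y ∉ center N := fun h => hk1 (mk_eq_one.2 h)
  have hyle : czb y ≤ K := by
    rintro _ ⟨w, hw, rfl⟩
    rw [hKmem]
    by_contra hne
    push Not at hne
    obtain ⟨hw1, g, hg⟩ := hne
    have hcom : (g⁻¹ * π y * g) * (g⁻¹ * π w * g) = (g⁻¹ * π w * g) * (g⁻¹ * π y * g) := by
      calc (g⁻¹ * π y * g) * (g⁻¹ * π w * g) = g⁻¹ * π (y * w) * g := by rw [map_mul]; group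
        _ = g⁻¹ * π (w * y) * g := by rw [mem_cz.1 hw]
        _ = (g⁻¹ * π w * g) * (g⁻¹ * π y * g) := by rw [map_mul]; group
    have hw1' : g⁻¹ * π w * g ≠ 1 := fun e => hw1 (by
      have := congrArg (fun u => g * u * g⁻¹) e
      simpa [mul_assoc] using this)
    exact ((hKmem _).1 hk).resolve_left hk1 g (Frobenius.mem_of_commute hFC hg hw1' hcom)
  have hKy : K ≤ normalizer (czb y : Set (N ⧸ center N)) := by
    intro a ha
    rw [mem_normalizer_iff]
    intro b
    have hcm : ∀ c ∈ K, a * c * a⁻¹ = c := fun c hc' => by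
      rw [show a * c = c * a from congrArg Subtype.val (hKea.1.is_comm.comm ⟨a, ha⟩ ⟨c, hc'⟩),
        mul_inv_cancel_right]
    refine ⟨fun hb => by rw [hcm b (hyle hb)]; exact hb, fun hb => ?_⟩
    have hbK : b ∈ K := by
      have := hKn.conj_mem _ (hyle hb) a⁻¹
      simpa [mul_assoc] using this
    rwa [hcm b hbK] at hb
  have hyn : (czb y).Normal := by
    refine (S.normal_or_selfnorm hy).resolve_right fun h => ?_
    have e : czb y = K := le_antisymm hyle (hKy.trans h.le)
    have hn' : (czb y).Normal := e ▸ hKn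
    exact czb_ne_top hy (by rw [← h, normalizer_eq_top])
  have hyK : czb y = K := by
    refine eq_of_sup_eq_top hyle hc.disjoint (by rw [normalizer_eq_top]; exact le_top) ?_
    refine (S.le_or_sup hx fun g _ => S.inv_of_normal hy hyn (S.inv_czb y) g).resolve_left fun h => ?_
    exact hk1 (disjoint_def.1 hc.disjoint hk (h (mem_map_of_mem _ (self_mem_cz y))))
  set q := QuotientGroup.mk' K with hq
  have hdec : ∀ b, ∃ a ∈ A, q b = q a := by
    intro b
    obtain ⟨⟨k', a⟩, hka⟩ := hc.surjective b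
    refine ⟨a, a.2, ?_⟩
    rw [← hka]
    show q ((k' : N ⧸ center N) * a) = q a
    rw [map_mul, show q (k' : N ⧸ center N) = 1 from (QuotientGroup.eq_one_iff (N := K) _).2 k'.2, one_mul]
  have hfixA : ∀ s ∈ S.St x, ∀ a ∈ A, S.bar s a = a := by
    rintro s hs _ ⟨a, ha, rfl⟩
    rw [S.bar_mk]
    congr 1
    by_cases haz : a ∈ center N
    · have hxa : x * a ∈ cz x := mul_mem (self_mem_cz x) ha
      have hxaz : x * a ∉ center N := fun h => hx ((mul_mem_cancel_right haz).1 h)
      have h1 : S.φ s (x * a) = x * a := by rw [← S.mem_St, hab _ hxa hxaz]; exact hs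
      rwa [map_mul, hs, mul_right_inj] at h1
    · rw [← S.mem_St, hab a ha haz]; exact hs
  have hqbar : ∀ (g : Γ) b, q (S.bar g b) = q b := by
    intro g b
    have hex : ∃ u, u ∉ cz x := by
      by_contra hne
      push Not at hne
      exact cz_ne_top hx (eq_top_iff.2 fun u _ => hne u)
    obtain ⟨n, hn⟩ := S.exists_decomp hx hex g
    have hbs : q (S.bar ((S.c n)⁻¹ * g) b) = q b := by
      obtain ⟨⟨k', a⟩, rfl⟩ := hc.surjective b
      show q (S.bar ((S.c n)⁻¹ * g) ((k' : N ⧸ center N) * a)) = q ((k' : N ⧸ center N) * a)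
      rw [map_mul, map_mul, map_mul, hfixA _ hn a a.2,
        show q (k' : N ⧸ center N) = 1 from (QuotientGroup.eq_one_iff (N := K) _).2 k'.2,
        show q (S.bar ((S.c n)⁻¹ * g) k') = 1 from
          (QuotientGroup.eq_one_iff (N := K) _).2 (hKinv _ hn _ k'.2)]
    have hgb : S.bar g b = π n * S.bar ((S.c n)⁻¹ * g) b * (π n)⁻¹ := by
      obtain ⟨m, rfl⟩ := QuotientGroup.mk'_surjective (center N) b
      rw [S.bar_mk, S.bar_mk, ← map_inv π, ← map_mul, ← map_mul, ← S.hc, ← MulAut.mul_apply,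
        ← map_mul, mul_inv_cancel_left]
    rw [hgb, map_mul, map_mul, map_inv, hbs]
    obtain ⟨a, ha, e1⟩ := hdec (π n)
    obtain ⟨a', ha', e2⟩ := hdec b
    rw [e1, e2, ← map_mul, show a * a' = a' * a from
      congrArg Subtype.val (hAc.is_comm.comm ⟨a, ha⟩ ⟨a', ha'⟩), map_mul, mul_inv_cancel_right]
  have hmin : ∀ D : Subgroup (N ⧸ center N), D ≤ A → D ≠ ⊥ → D = A := by
    intro D hD hD0
    have hinv : S.Inv y (K ⊔ D) := by
      intro g _ b hb
      have h1 : b⁻¹ * S.bar g b ∈ K := by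
        rw [← QuotientGroup.eq_one_iff (N := K), QuotientGroup.mk_mul, QuotientGroup.mk_inv]
        exact inv_mul_eq_one.2 (hqbar g b).symm
      simpa using mul_mem hb (mem_sup_left h1)
    rcases S.le_or_sup hy hinv with h | h
    · refine absurd (le_bot_iff.1 ((le_inf ?_ hD).trans hc.disjoint.le_bot)) hD0
      exact (le_sup_right.trans h).trans hyK.le
    · rw [hyK, sup_eq_left.2 le_sup_left] at h
      refine le_antisymm hD fun a ha => ?_
      obtain ⟨k', hk', d, hd, rfl⟩ := mem_sup_of_normal_left.1 (h ▸ mem_top a : a ∈ K ⊔ D)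
      have h1 : k' = 1 := disjoint_def.1 hc.disjoint hk' (by simpa using mul_mem ha (inv_mem (hD hd)))
      simpa [h1] using hd
  obtain ⟨l, hl, hlA⟩ := Nat.exists_prime_and_dvd (fun e => czb_ne_bot hx (card_eq_one.1 e))
  haveI : Fact l.Prime := ⟨hl⟩
  obtain ⟨a, ha⟩ := exists_prime_orderOf_dvd_card' l hlA
  rw [← hA, ← hmin (zpowers (a : N ⧸ center N)) (zpowers_le.2 a.2)
    (fun e => hl.ne_one (by rw [← ha, ← orderOf_coe, ← Nat.card_zpowers, e, card_bot])),
    Nat.card_zpowers, orderOf_coe, ha]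
  exact hl

end Cfsg.Agent.H73.MaxCent
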