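import Cfsg.Agent.H73.MaxCent.Setting
import Cfsg.Agent.S0117
import Cfsg.Agent.Modules.Thompson
import Cfsg.Agent.Lib.FrobeniusComplement
import Mathlib.GroupTheory.FixedPointFree

/-!
If the central quotient is not a `p`-group, some non-central element shares its stabiliser with all
non-central elements of its centraliser.
-/

set_option autoImplicit false
set_option linter.style.haveILetI false

namespace Cfsg.Agent.H73.MaxCent

open Subgroup

theorem exists_sylow_of_selfnorm {X : Type*} [Group X] [Finite X] {p : ℕ} [Fact p.Prime]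
    {P : Subgroup X} (hP : IsPGroup p P) (hsn : normalizer (P : Set X) = P) :
    ∃ Q : Sylow p X, (Q : Subgroup X) = P := by
  obtain ⟨Q, hQ⟩ := hP.exists_le_sylow
  refine ⟨Q, le_antisymm ?_ hQ⟩
  haveI := (Q.isPGroup').isNilpotent
  by_contra h
  have hlt : P.subgroupOf (Q : Subgroup X) < ⊤ := lt_top_iff_ne_top.2 fun e =>
    h (subgroupOf_eq_top.1 e)
  have h1 := Group.normalizerCondition_of_isNilpotent _ hlt
  apply h1.ne
  rw [← subgroupOf_normalizer_eq hQ, hsn]

theorem sylow_eq_of_isPGroup {X : Type*} [Group X] {p : ℕ} (Q : Sylow p X)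
    {P : Subgroup X} (hP : IsPGroup p P) (hle : (Q : Subgroup X) ≤ P) : P = (Q : Subgroup X) :=
  Q.3 hP hle

theorem mem_of_commute_split {X : Type*} [Group X] {K P : Subgroup X} (hK : K.Normal)
    (hd : Disjoint K P) (hdec : ∀ g : X, ∃ k ∈ K, k⁻¹ * g ∈ P)
    (hfpf : ∀ k ∈ K, ∀ b ∈ P, b ≠ 1 → k * b = b * k → k = 1) :
    ∀ b ∈ P, b ≠ 1 → ∀ c, c * b = b * c → c ∈ P := by
  intro b hb hb1 c hc
  obtain ⟨k, hk, hh⟩ := hdec c
  set h := k⁻¹ * c with hh'
  have hck : c = k * h := by rw [hh']; group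
  set b' := h * b * h⁻¹ with hb'
  have hb'P : b' ∈ P := mul_mem (mul_mem hh hb) (inv_mem hh)
  have e1 : k * b' * k⁻¹ = b := by
    rw [hb', show k * (h * b * h⁻¹) * k⁻¹ = (k * h) * b * (k * h)⁻¹ by group, ← hck, hc,
      mul_inv_cancel_right]
  have e2 : k * b' * k⁻¹ * b'⁻¹ = 1 := by
    refine disjoint_def.1 hd ?_ (by rw [e1]; exact mul_mem hb (inv_mem hb'P))
    have := mul_mem hk (hK.conj_mem _ (inv_mem hk) b')
    simpa [mul_assoc] using this
  have hb'1 : b' ≠ 1 := fun e => hb1 (by rw [← e1, e]; group)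
  have hk1 : k = 1 := hfpf k hk b' hb'P hb'1
    (mul_inv_eq_iff_eq_mul.1 (mul_inv_eq_one.1 e2))
  rw [hck, hk1, one_mul]
  exact hh

theorem exists_lift_pPower {X : Type*} [Group X] [Finite X] {M : Subgroup X} [M.Normal] {p : ℕ}
    (hp : p.Prime) {y : X} {i : ℕ} (hy : (y : X ⧸ M) ^ p ^ i = 1) :
    ∃ u : X, (u : X ⧸ M) = (y : X ⧸ M) ∧ ∃ l : ℕ, orderOf u = p ^ l := by
  obtain ⟨l, m, hm, hor⟩ := Nat.exists_eq_pow_mul_and_not_dvd (orderOf_pos y).ne' p hp.ne_one
  have hco : m.Coprime (p ^ i) :=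
    Nat.Coprime.pow_right _ ((hp.coprime_iff_not_dvd.2 hm).symm)
  obtain ⟨e, he⟩ := exists_pow_eq_self_of_coprime (x := (y : X ⧸ M)) (n := m)
    (hco.coprime_dvd_right (orderOf_dvd_of_pow_eq_one hy))
  refine ⟨(y ^ m) ^ e, by rw [QuotientGroup.mk_pow, QuotientGroup.mk_pow, he], ?_⟩
  obtain ⟨l', -, hl'⟩ := (Nat.dvd_prime_pow hp).1 (orderOf_dvd_of_pow_eq_one
    (show ((y ^ m) ^ e) ^ p ^ l = 1 by
      rw [← pow_mul, ← pow_mul, show m * (e * p ^ l) = p ^ l * m * e by ring, ← hor, pow_mul,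
        pow_orderOf_eq_one, one_pow]))
  exact ⟨l', hl'⟩

variable {N Γ : Type*} [Group N] [Group Γ] [Finite N] (S : Setup N Γ)

local notation "π" => QuotientGroup.mk' (center N)

/-- If the central quotient is no `p`-group then some stabiliser is shared by a whole
centraliser. -/
theorem Setup.exists_ab (hnp : ∀ p : ℕ, p.Prime → ¬ IsPGroup p (N ⧸ center N)) :
    ∃ x : N, x ∉ center N ∧ S.Ab x := by
  by_contra hne
  push Not at hne
  have hpart : ∀ y : N, y ∉ center N → ∃ p : ℕ, p.Prime ∧ IsPGroup p (czb y) := by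
    intro y hy
    obtain ⟨p, u, hp, -, huz, ⟨k, hk⟩, hSt⟩ := S.exists_pPart hy
    refine ⟨p, hp, ?_⟩
    rw [show czb y = czb u from congrArg (Subgroup.map π) (S.cz_eq_of_St_eq hSt).symm]
    exact S.isPGroup_czb hp hk huz (hne u huz)
  have hEP : ∀ b : N ⧸ center N, ∃ p i : ℕ, p.Prime ∧ b ^ p ^ i = 1 := by
    intro b
    obtain ⟨y, rfl⟩ := QuotientGroup.mk'_surjective (center N) b
    by_cases hy : y ∈ center N
    · exact ⟨2, 0, Nat.prime_two, by rw [mk_eq_one.2 hy, one_pow]⟩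
    obtain ⟨p, hp, hpg⟩ := hpart y hy
    obtain ⟨i, hi⟩ := hpg ⟨π y, mem_map_of_mem _ (self_mem_cz y)⟩
    exact ⟨p, i, hp, congrArg Subtype.val hi⟩
  have hkill : ∀ (b : N ⧸ center N) (p q i j : ℕ), p.Prime → q.Prime → p ≠ q →
      b ^ p ^ i = 1 → b ^ q ^ j = 1 → b = 1 := by
    intro b p q i j hp hq hpq h1 h2
    have := pow_gcd_eq_one.2 ⟨h1, h2⟩
    rwa [(Nat.coprime_pow_primes i j hp hq hpq).gcd_eq_one, pow_one] at this
  have same : ∀ (b c : N ⧸ center N) (p i : ℕ), p.Prime → b ≠ 1 → b ^ p ^ i = 1 → Commute b c →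
      ∃ j : ℕ, c ^ p ^ j = 1 := by
    intro b c p i hp hb hbi hbc
    obtain ⟨q, j, hq, hcj⟩ := hEP c
    by_cases hqp : q = p
    · exact ⟨j, hqp ▸ hcj⟩
    refine ⟨0, ?_⟩
    rw [pow_zero, pow_one]
    by_contra hc
    obtain ⟨y, rfl⟩ := QuotientGroup.mk'_surjective (center N) b
    obtain ⟨w, rfl⟩ := QuotientGroup.mk'_surjective (center N) c
    obtain ⟨u, hu, l, hl⟩ := exists_lift_pPower hp (y := y) (M := center N) hbi
    obtain ⟨v, hv, m, hm⟩ := exists_lift_pPower hq (y := w) (M := center N) hcj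
    have huz : u ∉ center N := fun h => hb (by
      rw [QuotientGroup.mk'_apply, ← hu]; exact (QuotientGroup.eq_one_iff u).2 h)
    set z := u * v * u⁻¹ * v⁻¹ with hz
    have hzc : z ∈ center N := by
      rw [← mk_eq_one, hz, map_mul, map_mul, map_mul, map_inv, map_inv,
        show π u = π y from hu, show π v = π w from hv, hbc.eq, mul_inv_cancel_right,
        mul_inv_cancel]
    have e : u * v * u⁻¹ = z * v := by rw [hz]; group
    have hzq : z ^ q ^ m = 1 := by
      have h1 : (u * v * u⁻¹) ^ q ^ m = 1 := by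
        rw [conj_pow, ← hm, pow_orderOf_eq_one, mul_one, mul_inv_cancel]
      rw [e, (show Commute z v from (mem_center_iff.1 hzc v).symm).mul_pow, ← hm,
        pow_orderOf_eq_one, mul_one] at h1
      rwa [← hm]
    have e' : v * u * v⁻¹ = z⁻¹ * u := by rw [hz]; group
    have hzp : z⁻¹ ^ p ^ l = 1 := by
      have h1 : (v * u * v⁻¹) ^ p ^ l = 1 := by
        rw [conj_pow, ← hl, pow_orderOf_eq_one, mul_one, mul_inv_cancel]
      rw [e', (show Commute z⁻¹ u from (mem_center_iff.1 (inv_mem hzc) u).symm).mul_pow, ← hl,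
        pow_orderOf_eq_one, mul_one] at h1
      rwa [← hl]
    rw [inv_pow, inv_eq_one] at hzp
    have hz1 : z = 1 := by
      have := pow_gcd_eq_one.2 ⟨hzp, hzq⟩
      rwa [(Nat.coprime_pow_primes l m hp hq (Ne.symm hqp)).gcd_eq_one, pow_one] at this
    have hvu : v ∈ cz u := mem_cz.2 (by
      rw [hz1, one_mul] at e
      exact (mul_inv_eq_iff_eq_mul.1 e).symm)
    obtain ⟨n, hn⟩ := S.isPGroup_czb hp hl huz (hne u huz) ⟨π v, mem_map_of_mem _ hvu⟩
    refine hc (hkill _ p q n j hp hq (Ne.symm hqp) ?_ hcj)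
    rw [← show π v = π w from hv]
    exact congrArg Subtype.val hn
  have pg : ∀ (y : N) (p i : ℕ), p.Prime → y ∉ center N → (π y) ^ p ^ i = 1 →
      IsPGroup p (czb y) := by
    rintro y p i hp hy hyi ⟨_, n, hn, rfl⟩
    obtain ⟨j, hj⟩ := same (π y) (π n) p i hp (fun e => hy (mk_eq_one.1 e)) hyi
      (show π y * π n = π n * π y by rw [← map_mul, ← map_mul, mem_cz.1 hn])
    exact ⟨j, Subtype.ext hj⟩
  have pick : ∀ p : ℕ, p.Prime → p ∣ Nat.card (N ⧸ center N) →
      ∃ x : N, x ∉ center N ∧ IsPGroup p (czb x) := by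
    intro p hp hpd
    haveI : Fact p.Prime := ⟨hp⟩
    obtain ⟨b, hb⟩ := exists_prime_orderOf_dvd_card' p hpd
    obtain ⟨x, rfl⟩ := QuotientGroup.mk'_surjective (center N) b
    have hx : x ∉ center N := fun h => hp.ne_one (by rw [← hb, mk_eq_one.2 h, orderOf_one])
    exact ⟨x, hx, pg x p 1 hp hx (by rw [pow_one, ← hb, pow_orderOf_eq_one])⟩
  have contra : ∀ (p : ℕ) (x : N), p.Prime → x ∉ center N → IsPGroup p (czb x) →
      ¬ (czb x).Normal → (∀ y ∈ cz x, y ∉ center N → ¬ (czb y).Normal) →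
      (∀ b ∈ czb x, b ≠ 1 → ∀ c, c * b = b * c → c ∈ czb x) → False := by
    intro p x hp hx hpg hxn hno hcen
    haveI : Fact p.Prime := ⟨hp⟩
    refine hne x hx (S.ab_of_cz_eq hx hxn fun y hy hyz => cz_eq_of_czb_eq ?_)
    have hle : czb y ≤ czb x := by
      rintro _ ⟨n, hn, rfl⟩
      refine hcen (π y) (mem_map_of_mem _ hy) (fun e => hyz (mk_eq_one.1 e)) _ ?_
      rw [← map_mul, ← map_mul, mem_cz.1 hn]
    obtain ⟨Q, hQ⟩ := exists_sylow_of_selfnorm (hpg.to_le hle)
      ((S.normal_or_selfnorm hyz).resolve_left (hno y hy hyz))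
    exact ((sylow_eq_of_isPGroup Q hpg (hQ.le.trans hle)).trans hQ).symm
  -- some `p`-core is non-trivial
  obtain ⟨p, hp, hO⟩ : ∃ p : ℕ, p.Prime ∧ Cfsg.pCore p (N ⧸ center N) ≠ ⊥ := by
    by_contra hcore
    push Not at hcore
    have hnn : ∀ y : N, y ∉ center N → ¬ (czb y).Normal := by
      intro y hy hn
      obtain ⟨r, hr, hrg⟩ := hpart y hy
      have h1 : czb y ≤ Cfsg.pCore r (N ⧸ center N) :=
        le_sSup (s := {M : Subgroup (N ⧸ center N) | M.Normal ∧ IsPGroup r M}) ⟨hn, hrg⟩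
      exact czb_ne_bot hy (le_bot_iff.1 (h1.trans (hcore r hr).le))
    obtain ⟨p, hp, hpd, hp2⟩ : ∃ p : ℕ, p.Prime ∧ p ∣ Nat.card (N ⧸ center N) ∧ p ≠ 2 := by
      by_contra h
      push Not at h
      exact hnp 2 Nat.prime_two (IsPGroup.of_card (Nat.eq_prime_pow_of_unique_prime_dvd
        Nat.card_pos.ne' fun {d} hd hdd => h d hd hdd))
    haveI : Fact p.Prime := ⟨hp⟩
    obtain ⟨x, hx, hpg⟩ := pick p hp hpd
    have hsn := (S.normal_or_selfnorm hx).resolve_left (hnn x hx)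
    obtain ⟨Q, hQ⟩ := exists_sylow_of_selfnorm hpg hsn
    set J := Cfsg.centerThompsonOf p (czb x) with hJ
    have hJne : J ≠ ⊥ := Modules.centerThompsonOf_ne_bot hpg (czb_ne_bot hx)
    have hJle : J ≤ czb x := Modules.centerThompsonOf_le p _
    have hJinv : S.Inv x J := by
      intro g hg b hb
      have h1 : (S.bar g).toMonoidHom b ∈ J.map (S.bar g).toMonoidHom := mem_map_of_mem _ hb
      rw [hJ, Modules.map_centerThompsonOf (f := (S.bar g).toMonoidHom) (S.bar g).injective,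
        S.map_bar_eq (S.inv_czb x) hg] at h1
      exact h1
    have hPJ : czb x ≤ normalizer (J : Set (N ⧸ center N)) := by
      intro a ha
      have key : ∀ a ∈ czb x, ∀ b ∈ J, a * b * a⁻¹ ∈ J := by
        intro a ha b hb
        have h1 : (MulAut.conj a).toMonoidHom b ∈ J.map (MulAut.conj a).toMonoidHom :=
          mem_map_of_mem _ hb
        have hfix : (czb x).map (MulAut.conj a).toMonoidHom = czb x := by
          refine le_antisymm ?_ fun c hc => ?_
          · rintro _ ⟨c, hc, rfl⟩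
            exact mul_mem (mul_mem ha hc) (inv_mem ha)
          · exact ⟨a⁻¹ * c * a, mul_mem (mul_mem (inv_mem ha) hc) ha, by simp [mul_assoc]⟩
        rw [hJ, Modules.conj_centerThompsonOf, hfix] at h1
        exact h1
      rw [mem_normalizer_iff]
      intro b
      refine ⟨key a ha b, fun h => ?_⟩
      have := key a⁻¹ (inv_mem ha) _ h
      simpa [mul_assoc] using this
    have hM : normalizer (J : Set (N ⧸ center N)) = czb x := by
      refine le_antisymm ?_ hPJ
      refine (S.le_or_sup hx (S.inv_normalizer hJinv)).resolve_right fun h => ?_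
      rw [sup_eq_left.2 hPJ, normalizer_eq_top_iff] at h
      have h1 : J ≤ Cfsg.pCore p (N ⧸ center N) :=
        le_sSup (s := {M : Subgroup (N ⧸ center N) | M.Normal ∧ IsPGroup p M}) ⟨h, hpg.to_le hJle⟩
      exact hJne (le_bot_iff.1 (h1.trans (hcore p hp).le))
    obtain ⟨P', K, hKn, hc⟩ : Cfsg.HasNormalPComplement p (N ⧸ center N) := by
      refine (Cfsg.Agent.S0117.result hp2 Q).2 ?_
      rw [hQ, ← hJ, hM]
      let R : Sylow p (czb x) := default
      have htop : (R : Subgroup (czb x)) = ⊤ :=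
        (sylow_eq_of_isPGroup R (hpg.to_subgroup ⊤) le_top).symm
      exact ⟨R, ⊥, inferInstance, by rw [htop]; exact isComplement'_bot_left.2 rfl⟩
    have hcop : (Nat.card K).Coprime (Nat.card (czb x)) := by
      rw [← hQ, Q.card_eq_multiplicity, ← P'.card_eq_multiplicity]
      have := P'.card_coprime_index
      rw [hc.index_eq_card] at this
      exact this.symm
    have hc' : K.IsComplement' (czb x) := isComplement'_of_coprime (by
      rw [← hQ, Q.card_eq_multiplicity, ← P'.card_eq_multiplicity, hc.card_mul]) hcop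
    refine contra p x hp hx hpg (hnn x hx) (fun y _ hyz => hnn y hyz) ?_
    refine mem_of_commute_split hKn hc'.disjoint (fun g => ?_) ?_
    · obtain ⟨⟨k, a⟩, rfl⟩ := hc'.surjective g
      exact ⟨k, k.2, by simp⟩
    · intro k hk b hb hb1 hkb
      obtain ⟨i, hi⟩ := hpg ⟨b, hb⟩
      obtain ⟨j, hj⟩ := same b k p i hp hb1 (congrArg Subtype.val hi) hkb.symm
      have hk1 : k ^ Nat.card K = 1 := congrArg Subtype.val (pow_card_eq_one' (x := (⟨k, hk⟩ : K)))
      have hpK : p.Coprime (Nat.card K) := (hcop.coprime_dvd_right (by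
        obtain ⟨n, hn⟩ := IsPGroup.iff_card.1 hpg
        rcases n with _ | n
        · exact absurd (card_eq_one.1 (by simpa using hn)) (czb_ne_bot hx)
        · rw [hn]; exact dvd_pow_self p n.succ_ne_zero)).symm
      have := pow_gcd_eq_one.2 ⟨hj, hk1⟩
      rwa [(hpK.pow_left j).gcd_eq_one, pow_one] at this
  -- the other primes
  haveI : Fact p.Prime := ⟨hp⟩
  set O := Cfsg.pCore p (N ⧸ center N) with hOdef
  have hOn : O.Normal := by
    refine ⟨fun b hb g => ?_⟩
    have h1 : O ≤ O.comap (MulAut.conj g).toMonoidHom := sSup_le fun M ⟨hMn, hMp⟩ m hm =>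
      le_sSup (s := {M : Subgroup (N ⧸ center N) | M.Normal ∧ IsPGroup p M}) ⟨hMn, hMp⟩
        (hMn.conj_mem m hm g)
    exact h1 hb
  have hOp : IsPGroup p O := by
    obtain ⟨Q⟩ := (inferInstance : Nonempty (Sylow p (N ⧸ center N)))
    refine IsPGroup.to_le (Q.isPGroup') (sSup_le fun M ⟨hMn, hMp⟩ => ?_)
    obtain ⟨R, hR⟩ := hMp.exists_le_sylow
    obtain ⟨g, rfl⟩ := MulAction.exists_smul_eq (N ⧸ center N) R Q
    intro m hm
    rw [Sylow.coe_subgroup_smul]
    exact ⟨g⁻¹ * m * g, hR (by simpa using hMn.conj_mem m hm g⁻¹), by simp [mul_assoc]⟩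
  obtain ⟨q, hq, hqd, hqp⟩ : ∃ q : ℕ, q.Prime ∧ q ∣ Nat.card (N ⧸ center N) ∧ q ≠ p := by
    by_contra h
    push Not at h
    exact hnp p hp (IsPGroup.of_card (Nat.eq_prime_pow_of_unique_prime_dvd
      Nat.card_pos.ne' fun {d} hd hdd => h d hd hdd))
  haveI : Fact q.Prime := ⟨hq⟩
  obtain ⟨x, hx, hqg⟩ := pick q hq hqd
  have hfpf : ∀ o ∈ O, ∀ b : N ⧸ center N, b ≠ 1 → (∃ i : ℕ, b ^ q ^ i = 1) → o * b = b * o →
      o = 1 := by
    rintro o ho b hb ⟨i, hi⟩ hob
    obtain ⟨j, hj⟩ := same b o q i hq hb hi hob.symm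
    obtain ⟨k, hk⟩ := hOp ⟨o, ho⟩
    exact hkill o p q k j hp hq hqp.symm (congrArg Subtype.val hk) hj
  have hqno : ∀ y ∈ cz x, y ∉ center N → ¬ (czb y).Normal := by
    intro y hy hyz hn
    obtain ⟨i, hi⟩ := hqg ⟨π y, mem_map_of_mem _ hy⟩
    have hd := IsPGroup.disjoint_of_ne p q hqp.symm _ _ hOp (pg y q i hq hyz (congrArg Subtype.val hi))
    obtain ⟨o, ho, ho1⟩ := O.bot_or_exists_ne_one.resolve_left hO
    exact ho1 (hfpf o ho (π y) (fun e => hyz (mk_eq_one.1 e)) ⟨i, congrArg Subtype.val hi⟩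
      (Subgroup.commute_of_normal_of_disjoint _ _ hOn hn hd o (π y) ho
        (mem_map_of_mem _ (self_mem_cz y))).eq)
  have hxn := hqno x (self_mem_cz x) hx
  have hsn := (S.normal_or_selfnorm hx).resolve_left hxn
  obtain ⟨Q, hQ⟩ := exists_sylow_of_selfnorm hqg hsn
  have hQfpf : ∀ o ∈ O, ∀ b ∈ czb x, b ≠ 1 → o * b = b * o → o = 1 := by
    intro o ho b hb hb1 hob
    obtain ⟨i, hi⟩ := hqg ⟨b, hb⟩
    exact hfpf o ho b hb1 ⟨i, congrArg Subtype.val hi⟩ hob
  by_cases hq2 : q = 2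
  swap
  · -- cyclic complements
    let R : Sylow q (czb x) := default
    have htop : (R : Subgroup (czb x)) = ⊤ :=
      (sylow_eq_of_isPGroup R (hqg.to_subgroup ⊤) le_top).symm
    have hR := FrobeniusCompl.sylow_cyclic_or_quaternion (H := czb x) (K := O)
      (by rw [normalizer_eq_top]; exact le_top) hO (fun b hb hb1 => eq_bot_iff.2 fun o ⟨ho, ho'⟩ =>
        Subgroup.mem_bot.2 (hQfpf o ho b hb hb1 (mem_centralizer_singleton_iff.1 ho'))) R
    rcases hR with hR | ⟨h2, -⟩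
    swap
    · exact hq2 h2
    obtain ⟨⟨⟨g, hg⟩, hgR⟩, hgen⟩ := hR.exists_generator
    obtain ⟨g', hg', rfl⟩ := hg
    have hdec : ∀ n ∈ cz x, ∃ i : ℤ, ∃ z ∈ center N, n = g' ^ i * z := by
      intro n hn
      obtain ⟨i, hi⟩ := mem_zpowers_iff.1 (hgen ⟨⟨π n, mem_map_of_mem _ hn⟩, htop.ge (mem_top _)⟩)
      refine ⟨i, (g' ^ i)⁻¹ * n, ?_, by group⟩
      have e : (π g') ^ i = π n := congrArg (fun a : (R : Subgroup (czb x)) =>
        ((a : czb x) : N ⧸ center N)) hi
      rw [← mk_eq_one, map_mul, map_inv, map_zpow, e, inv_mul_cancel]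
    have hcomm : ∀ a ∈ cz x, ∀ b ∈ cz x, a * b = b * a := by
      intro a ha b hb
      obtain ⟨i, z, hz, rfl⟩ := hdec a ha
      obtain ⟨j, w, hw, rfl⟩ := hdec b hb
      have hz' : ∀ u : N, Commute z u := fun u => (mem_center_iff.1 hz u).symm
      have hw' : ∀ u : N, Commute w u := fun u => (mem_center_iff.1 hw u).symm
      exact (((Commute.refl g').zpow_zpow i j).mul_right (hw' _).symm).mul_left
        ((hz' _).mul_right (hz' _)) |>.eq
    refine hne x hx (S.ab_of_cz_eq hx hxn fun y hy hyz => cz_eq_of_czb_eq ?_)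
    obtain ⟨i, hi⟩ := hqg ⟨π y, mem_map_of_mem _ hy⟩
    have hle : (Q : Subgroup (N ⧸ center N)) ≤ czb y := hQ.le.trans
      (Subgroup.map_mono fun n hn => mem_cz.2 (hcomm n hn y hy))
    exact (sylow_eq_of_isPGroup Q (pg y q i hq hyz (congrArg Subtype.val hi)) hle).trans hQ
  subst hq2
  -- a central involution of the complement inverts `O`
  haveI : Nontrivial (czb x) := (czb x).bot_or_nontrivial.resolve_left (czb_ne_bot hx)
  haveI := hqg.center_nontrivial
  obtain ⟨c₀, hc₀⟩ := exists_prime_orderOf_dvd_card' (G := center (czb x)) 2 (by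
    obtain ⟨k, hk⟩ := IsPGroup.iff_card.1 (hqg.to_subgroup (center (czb x)))
    rcases k with _ | k
    · exact absurd hk (by simpa using (Finite.one_lt_card (α := center (czb x))).ne')
    · rw [hk]; exact dvd_pow_self 2 k.succ_ne_zero)
  set z : N ⧸ center N := ((c₀ : czb x) : N ⧸ center N) with hzdef
  have hzord : orderOf z = 2 := by rw [hzdef, orderOf_coe, orderOf_coe, hc₀]
  have hzP : z ∈ czb x := (c₀ : czb x).2
  have hz1 : z ≠ 1 := fun e => by rw [e, orderOf_one] at hzord; omega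
  have hzz : z * z = 1 := by rw [← pow_two, ← hzord, pow_orderOf_eq_one]
  have hzi : z⁻¹ = z := inv_eq_of_mul_eq_one_right hzz
  have hzc : ∀ b ∈ czb x, b * z = z * b := fun b hb =>
    congrArg Subtype.val (mem_center_iff.1 c₀.2 ⟨b, hb⟩)
  haveI := hOn
  have hinv : ∀ o ∈ O, z * o * z⁻¹ = o⁻¹ := by
    intro o ho
    let f : O →* O := (MulAut.conjNormal z : MulAut O).toMonoidHom
    have h1 : MonoidHom.FixedPointFree f := fun a ha => Subtype.ext <|
      hQfpf a a.2 z hzP hz1 (mul_inv_eq_iff_eq_mul.1 (congrArg Subtype.val ha :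
        z * (a : N ⧸ center N) * z⁻¹ = a)).symm
    have h2 : Function.Involutive f := fun a => Subtype.ext (by
      show z * (z * (a : N ⧸ center N) * z⁻¹) * z⁻¹ = a
      rw [hzi]
      calc z * (z * (a : N ⧸ center N) * z) * z = (z * z) * a * (z * z) := by group
        _ = a := by rw [hzz, one_mul, mul_one])
    exact congrArg Subtype.val (congrFun (h1.coe_eq_inv_of_involutive h2) ⟨o, ho⟩)
  have hTO : centralizer (O : Set (N ⧸ center N)) ≤ O := by
    obtain ⟨o, ho, ho1⟩ := O.bot_or_exists_ne_one.resolve_left hO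
    obtain ⟨i, hi⟩ := hOp ⟨o, ho⟩
    refine le_sSup (s := {M : Subgroup (N ⧸ center N) | M.Normal ∧ IsPGroup p M}) ⟨?_, ?_⟩
    · refine ⟨fun t ht g => mem_centralizer_iff.2 fun a ha => ?_⟩
      have h := mem_centralizer_iff.1 ht (g⁻¹ * a * g)
        (by simpa using hOn.conj_mem a ha g⁻¹)
      calc a * (g * t * g⁻¹) = g * ((g⁻¹ * a * g) * t) * g⁻¹ := by group
        _ = g * (t * (g⁻¹ * a * g)) * g⁻¹ := by rw [h]
        _ = g * t * g⁻¹ * a := by group
    · rintro ⟨t, ht⟩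
      obtain ⟨j, hj⟩ := same o t p i hp ho1 (congrArg Subtype.val hi) (mem_centralizer_iff.1 ht o ho)
      exact ⟨j, Subtype.ext hj⟩
  have hC : centralizer {z} = czb x := by
    have h1 : IsPGroup 2 (centralizer {z}) := by
      rintro ⟨c, hc⟩
      obtain ⟨j, hj⟩ := same z c 2 1 Nat.prime_two hz1 (by rw [pow_one, ← hzord, pow_orderOf_eq_one])
        (mem_centralizer_singleton_iff.1 hc).symm
      exact ⟨j, Subtype.ext hj⟩
    exact (sylow_eq_of_isPGroup Q h1 (hQ.le.trans fun b hb =>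
      mem_centralizer_singleton_iff.2 (hzc b hb))).trans hQ
  have hdec : ∀ g : N ⧸ center N, ∃ k ∈ O, k⁻¹ * g ∈ czb x := by
    intro g
    have hd : z⁻¹ * (g * z * g⁻¹) ∈ O := by
      refine hTO (mem_centralizer_iff.2 fun o ho => ?_)
      have e1 : g * z * g⁻¹ * o * (g * z * g⁻¹)⁻¹ = o⁻¹ := by
        have := hinv (g⁻¹ * o * g) (by simpa using hOn.conj_mem o ho g⁻¹)
        calc g * z * g⁻¹ * o * (g * z * g⁻¹)⁻¹ = g * (z * (g⁻¹ * o * g) * z⁻¹) * g⁻¹ := by group
          _ = g * (g⁻¹ * o * g)⁻¹ * g⁻¹ := by rw [this]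
          _ = o⁻¹ := by group
      have e2 : z⁻¹ * o⁻¹ * z = o := by
        have := hinv _ (inv_mem ho)
        rw [inv_inv, hzi] at this
        rw [hzi]
        exact this
      have e3 : z⁻¹ * (g * z * g⁻¹) * o * (z⁻¹ * (g * z * g⁻¹))⁻¹ = o := by
        calc z⁻¹ * (g * z * g⁻¹) * o * (z⁻¹ * (g * z * g⁻¹))⁻¹
            = z⁻¹ * (g * z * g⁻¹ * o * (g * z * g⁻¹)⁻¹) * z := by group
          _ = o := by rw [e1, e2]
      exact (mul_inv_eq_iff_eq_mul.1 e3).symm
    have hOodd : (Nat.card O).Coprime 2 := by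
      obtain ⟨n, hn⟩ := IsPGroup.iff_card.1 hOp
      rw [hn]
      exact ((Nat.coprime_primes hp Nat.prime_two).2 hqp.symm).pow_left n
    obtain ⟨v, hv⟩ := (powCoprime hOodd).surjective ⟨_, hd⟩
    have hv' : (v : N ⧸ center N) * v = z⁻¹ * (g * z * g⁻¹) := by
      rw [← pow_two]; exact congrArg Subtype.val hv
    refine ⟨(v : N ⧸ center N)⁻¹, inv_mem v.2, ?_⟩
    rw [inv_inv, ← hC, mem_centralizer_singleton_iff]
    have e4 : g * z * g⁻¹ = (v : N ⧸ center N)⁻¹ * z * v := by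
      have h5 := hinv _ (inv_mem v.2)
      rw [inv_inv] at h5
      calc g * z * g⁻¹ = z * ((v : N ⧸ center N) * v) := by rw [hv']; group
        _ = z * v * v := by rw [mul_assoc]
        _ = z * (z * (v : N ⧸ center N)⁻¹ * z⁻¹) * v := by rw [h5]
        _ = (z * z) * (v : N ⧸ center N)⁻¹ * z⁻¹ * v := by group
        _ = (v : N ⧸ center N)⁻¹ * z * v := by rw [hzz, hzi, one_mul]
    calc (v : N ⧸ center N) * g * z = v * (g * z * g⁻¹) * g := by group
      _ = v * ((v : N ⧸ center N)⁻¹ * z * v) * g := by rw [e4]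
      _ = z * ((v : N ⧸ center N) * g) := by group
  exact contra 2 x hq hx hqg hxn hqno (mem_of_commute_split hOn
    (IsPGroup.disjoint_of_ne p 2 hqp.symm _ _ hOp hqg) hdec
    (fun o ho b hb hb1 => hQfpf o ho b hb hb1))

end Cfsg.Agent.H73.MaxCent
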