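import Cfsg.Agent.H73.MaxCent.Frob
import Cfsg.Agent.H73.MaxCent.NoAb

/-!
The structure of the central quotient.
-/

set_option autoImplicit false
set_option linter.style.haveILetI false

namespace Cfsg.Agent.H73.MaxCent

open Subgroup

theorem Setup.dichotomy {N Γ : Type*} [Group N] [Group Γ] [Finite N] (S : Setup N Γ) :
    (∃ p : ℕ, p.Prime ∧ Cfsg.IsElementaryAbelian p (⊤ : Subgroup (N ⧸ center N))) ∨
      ∃ x : N, x ∉ center N ∧ FrobOut x := by
  by_cases h : ∃ p : ℕ, p.Prime ∧ IsPGroup p (N ⧸ center N)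
  · obtain ⟨p, hp, hP⟩ := h
    haveI : Fact p.Prime := ⟨hp⟩
    exact Or.inl ⟨p, hp, S.elementary_of_pGroup hP⟩
  push Not at h
  obtain ⟨x, hx, hab⟩ := S.exists_ab h
  by_cases hn : (czb x).Normal
  · rcases S.normal_case hx hab hn with h' | ⟨t, ht, habt, hnt⟩
    · exact Or.inl h'
    · exact Or.inr ⟨t, ht, S.selfnorm_case ht habt hnt⟩
  · exact Or.inr ⟨x, hx, S.selfnorm_case hx hab hn⟩

end Cfsg.Agent.H73.MaxCent
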